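import Cfsg.Agent.H377.TwoConv.Basic

/-!
# S4897, converse: `A₅` and `A₆` (helper377)
-/

set_option autoImplicit false

namespace Cfsg.Agent.H377.TwoConv

open Cfsg Cfsg.Agent.Characters.Core Cfsg.Agent.H504.Zeros Cfsg.Agent.H504.TwoZ Cfsg.Agent.H727.DegCount
open Cfsg.Agent.H442.ZerosSmall Equiv

theorem ppow {G : Type*} [Group G] {g : G} {p : ℕ} (h : orderOf g = p) : ∃ k : ℕ, orderOf g = p ^ k := ⟨1, by rw [h, pow_one]⟩

/-! ### `A₅` -/

def t5 : alternatingGroup (Fin 5) := ⟨swap 0 1 * swap 2 3, Perm.mem_alternatingGroup.2 (by decide +kernel)⟩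
def c5 : alternatingGroup (Fin 5) := ⟨swap 0 1 * swap 1 2, Perm.mem_alternatingGroup.2 (by decide +kernel)⟩
def f5 : alternatingGroup (Fin 5) := ⟨swap 0 1 * swap 1 2 * (swap 2 3 * swap 3 4),
  Perm.mem_alternatingGroup.2 (by decide +kernel)⟩

theorem ord_t5 : orderOf t5 = 2 := orderOf_eq_prime (by decide +kernel) (by decide +kernel)
theorem ord_c5 : orderOf c5 = 3 := orderOf_eq_prime (by decide +kernel) (by decide +kernel)
theorem ord_f5 : orderOf f5 = 5 :=
  have : Fact (Nat.Prime 5) := ⟨by norm_num⟩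
  orderOf_eq_prime (by decide +kernel) (by decide +kernel)

theorem k_a5 : Nat.card (ConjClasses (alternatingGroup (Fin 5))) = 5 := by
  have D := deg_a5
  rw [card_classes _ D.mem, Finset.sum_insert (by decide), Finset.sum_insert (by decide),
    Finset.sum_insert (by decide), Finset.sum_singleton, D.one, D.three, D.four, D.five]
  norm_num

theorem card_a5 : Nat.card (alternatingGroup (Fin 5)) = 60 := by
  rw [Nat.card_eq_fintype_card]
  decide +kernel

theorem atMost_a5 : AtMost (alternatingGroup (Fin 5)) := by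
  have D := deg_a5
  obtain ⟨φ, -⟩ := exists_deg (G := alternatingGroup (Fin 5)) (d := 1) (by rw [D.one]; norm_num)
  refine ⟨φ, fun χ h1 _ => ?_⟩
  have hm := D.mem _ (cnt_deg_pos χ)
  have o1 : orderOf (1 : alternatingGroup (Fin 5)) = 1 := orderOf_one
  have ot := ord_t5
  have oc := ord_c5
  have of := ord_f5
  simp only [Finset.mem_insert, Finset.mem_singleton] at hm
  rcases hm with hd | hd | hd | hd
  · exact absurd hd h1
  · have h := zc_add_le (χ := χ) [1, t5, f5] (by
      simp only [List.pairwise_cons, List.mem_cons, List.not_mem_nil, or_false, forall_eq_or_imp, forall_eq]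
      refine ⟨⟨not_isConj (by omega), not_isConj (by omega)⟩, not_isConj (by omega), ?_⟩
      simp) (by
      simp only [List.mem_cons, List.not_mem_nil, or_false, forall_eq_or_imp, forall_eq]
      exact ⟨ne_zero_one, ne_zero_of_not_dvd Nat.prime_two (by rw [hd]; norm_num) (ppow ot),
        ne_zero_of_not_dvd Nat.prime_five (by rw [hd]; norm_num) (ppow of)⟩)
    rw [k_a5] at h
    simpa using h
  · have h := zc_add_le (χ := χ) [1, c5, f5] (by
      simp only [List.pairwise_cons, List.mem_cons, List.not_mem_nil, or_false, forall_eq_or_imp, forall_eq]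
      refine ⟨⟨not_isConj (by omega), not_isConj (by omega)⟩, not_isConj (by omega), ?_⟩
      simp) (by
      simp only [List.mem_cons, List.not_mem_nil, or_false, forall_eq_or_imp, forall_eq]
      exact ⟨ne_zero_one, ne_zero_of_not_dvd Nat.prime_three (by rw [hd]; norm_num) (ppow oc),
        ne_zero_of_not_dvd Nat.prime_five (by rw [hd]; norm_num) (ppow of)⟩)
    rw [k_a5] at h
    simpa using h
  · have h := zc_add_le (χ := χ) [1, t5, c5] (by
      simp only [List.pairwise_cons, List.mem_cons, List.not_mem_nil, or_false, forall_eq_or_imp, forall_eq]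
      refine ⟨⟨not_isConj (by omega), not_isConj (by omega)⟩, not_isConj (by omega), ?_⟩
      simp) (by
      simp only [List.mem_cons, List.not_mem_nil, or_false, forall_eq_or_imp, forall_eq]
      exact ⟨ne_zero_one, ne_zero_of_not_dvd Nat.prime_two (by rw [hd]; norm_num) (ppow ot),
        ne_zero_of_not_dvd Nat.prime_three (by rw [hd]; norm_num) (ppow oc)⟩)
    rw [k_a5] at h
    simpa using h

/-- the irreducible characters of degrees 3, 3, 4, 5 of `A₅` and their zeros -/
theorem a5_chars : ∃ χ₁ χ₂ χ₃ χ₄ : IrrCharacter (alternatingGroup (Fin 5)), χ₁ ≠ χ₂ ∧ χ₁ ≠ χ₃ ∧ χ₁ ≠ χ₄ ∧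
    χ₂ ≠ χ₃ ∧ χ₂ ≠ χ₄ ∧ χ₃ ≠ χ₄ ∧ (∀ g, orderOf g = 3 → (χ₁ : alternatingGroup (Fin 5) → ℂ) g = 0) ∧
    (∀ g, orderOf g = 3 → (χ₂ : alternatingGroup (Fin 5) → ℂ) g = 0) ∧ (∀ g, orderOf g = 2 → (χ₃ : alternatingGroup (Fin 5) → ℂ) g = 0) ∧
    (∀ g, orderOf g = 5 → (χ₄ : alternatingGroup (Fin 5) → ℂ) g = 0) := by
  have D := deg_a5
  obtain ⟨χ₁, χ₂, h12, h1, h2⟩ := exists_deg_two (G := alternatingGroup (Fin 5)) (d := 3) (by rw [D.three])
  obtain ⟨χ₃, h3⟩ := exists_deg (G := alternatingGroup (Fin 5)) (d := 4) (by rw [D.four]; norm_num)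
  obtain ⟨χ₄, h4⟩ := exists_deg (G := alternatingGroup (Fin 5)) (d := 5) (by rw [D.five]; norm_num)
  refine ⟨χ₁, χ₂, χ₃, χ₄, h12, ne_of_deg (by omega), ne_of_deg (by omega), ne_of_deg (by omega), ne_of_deg (by omega), ne_of_deg (by omega),
    fun g hg => ?_, fun g hg => ?_, fun g hg => ?_, fun g hg => ?_⟩
  · exact eq_zero_of_dz (p := 3) (a := 1) Nat.prime_three (by rw [h1]; norm_num) (by rw [card_a5]; norm_num)
      (by rw [hg])
  · exact eq_zero_of_dz (p := 3) (a := 1) Nat.prime_three (by rw [h2]; norm_num) (by rw [card_a5]; norm_num)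
      (by rw [hg])
  · exact eq_zero_of_dz (p := 2) (a := 2) Nat.prime_two (by rw [h3]; norm_num) (by rw [card_a5]; norm_num)
      (by rw [hg])
  · exact eq_zero_of_dz (p := 5) (a := 1) Nat.prime_five (by rw [h4]; norm_num) (by rw [card_a5]; norm_num)
      (by rw [hg])

/-! ### `A₆` -/

/-- an element of order 4 -/
def f4 : alternatingGroup (Fin 6) := ⟨swap 0 1 * swap 1 2 * (swap 2 3 * swap 4 5),
  Perm.mem_alternatingGroup.2 (by decide +kernel)⟩
/-- an element of order 5 -/
def f6 : alternatingGroup (Fin 6) := ⟨swap 0 1 * swap 1 2 * (swap 2 3 * swap 3 4),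
  Perm.mem_alternatingGroup.2 (by decide +kernel)⟩

theorem ord_t2 : orderOf t2 = 2 := orderOf_eq_prime (by rw [pow_two]; exact t2_pow) t2_ne
theorem ord_c3 : orderOf c3 = 3 := orderOf_eq_prime c3_pow c3_ne
theorem ord_d3 : orderOf d3 = 3 := orderOf_eq_prime d3_pow d3_ne
theorem ord_f4 : orderOf f4 = 4 := by
  have h : orderOf f4 = 2 ^ (1 + 1) := orderOf_eq_prime_pow (by decide +kernel) (by decide +kernel)
  exact h
theorem ord_f6 : orderOf f6 = 5 :=
  have : Fact (Nat.Prime 5) := ⟨by norm_num⟩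
  orderOf_eq_prime (by decide +kernel) (by decide +kernel)
theorem ord_f6' : orderOf (f6 ^ 2) = 5 :=
  have : Fact (Nat.Prime 5) := ⟨by norm_num⟩
  orderOf_eq_prime (by decide +kernel) (by decide +kernel)

theorem not_conj_f6 : ¬ IsConj f6 (f6 ^ 2) := by
  intro h
  obtain ⟨g, hg⟩ := isConj_iff.1 h
  have key : ∀ g : alternatingGroup (Fin 6), g * f6 ≠ f6 ^ 2 * g := by decide +kernel
  exact key g (by rw [← hg, inv_mul_cancel_right])

theorem not_conj_cd : ¬ IsConj c3 d3 := by
  intro h
  obtain ⟨g, hg⟩ := isConj_iff.1 h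
  exact c3_d3 g (by rw [← hg, inv_mul_cancel_right])

theorem k_a6 : Nat.card (ConjClasses (alternatingGroup (Fin 6))) = 7 := by
  have D := deg_a6
  rw [card_classes _ D.mem, Finset.sum_insert (by decide), Finset.sum_insert (by decide),
    Finset.sum_insert (by decide), Finset.sum_insert (by decide), Finset.sum_singleton, D.one, D.five, D.eight,
    D.nine, D.ten]
  norm_num

theorem card_a6 : Nat.card (alternatingGroup (Fin 6)) = 360 := by
  rw [Nat.card_eq_fintype_card]
  decide +kernel

theorem atMost_a6 : AtMost (alternatingGroup (Fin 6)) := by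
  have D := deg_a6
  obtain ⟨φ, hφ⟩ := exists_deg (G := alternatingGroup (Fin 6)) (d := 10) (by rw [D.ten]; norm_num)
  refine ⟨φ, fun χ h1 hne => ?_⟩
  have hm := D.mem _ (cnt_deg_pos χ)
  have o1 : orderOf (1 : alternatingGroup (Fin 6)) = 1 := orderOf_one
  have ot := ord_t2
  have oc := ord_c3
  have od := ord_d3
  have o4 := ord_f4
  have o5 := ord_f6
  have o5' := ord_f6'
  simp only [Finset.mem_insert, Finset.mem_singleton] at hm
  rcases hm with hd | hd | hd | hd | hd
  · exact absurd hd h1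
  · have h := zc_add_le (χ := χ) [1, t2, c3, d3, f4] (by
      simp only [List.pairwise_cons, List.mem_cons, List.not_mem_nil, or_false, forall_eq_or_imp, forall_eq]
      refine ⟨⟨not_isConj (by omega), not_isConj (by omega), not_isConj (by omega), not_isConj (by omega)⟩,
        ⟨not_isConj (by omega), not_isConj (by omega), not_isConj (by omega)⟩,
        ⟨not_conj_cd, not_isConj (by omega)⟩, not_isConj (by omega), ?_⟩
      simp) (by
      simp only [List.mem_cons, List.not_mem_nil, or_false, forall_eq_or_imp, forall_eq]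
      exact ⟨ne_zero_one, ne_zero_of_not_dvd Nat.prime_two (by rw [hd]; norm_num) (ppow ot),
        ne_zero_of_not_dvd Nat.prime_three (by rw [hd]; norm_num) (ppow oc),
        ne_zero_of_not_dvd Nat.prime_three (by rw [hd]; norm_num) (ppow od),
        ne_zero_of_not_dvd Nat.prime_two (by rw [hd]; norm_num) ⟨2, o4⟩⟩)
    rw [k_a6] at h
    simpa using h
  · have h := zc_add_le (χ := χ) [1, c3, d3, f6, f6 ^ 2] (by
      simp only [List.pairwise_cons, List.mem_cons, List.not_mem_nil, or_false, forall_eq_or_imp, forall_eq]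
      refine ⟨⟨not_isConj (by omega), not_isConj (by omega), not_isConj (by omega), not_isConj (by omega)⟩,
        ⟨not_conj_cd, not_isConj (by omega), not_isConj (by omega)⟩,
        ⟨not_isConj (by omega), not_isConj (by omega)⟩, not_conj_f6, ?_⟩
      simp) (by
      simp only [List.mem_cons, List.not_mem_nil, or_false, forall_eq_or_imp, forall_eq]
      exact ⟨ne_zero_one, 
        ne_zero_of_not_dvd Nat.prime_three (by rw [hd]; norm_num) (ppow oc),
        ne_zero_of_not_dvd Nat.prime_three (by rw [hd]; norm_num) (ppow od),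
        ne_zero_of_not_dvd Nat.prime_five (by rw [hd]; norm_num) (ppow o5),
        ne_zero_of_not_dvd Nat.prime_five (by rw [hd]; norm_num) (ppow o5')⟩)
    rw [k_a6] at h
    simpa using h
  · have h := zc_add_le (χ := χ) [1, t2, f4, f6, f6 ^ 2] (by
      simp only [List.pairwise_cons, List.mem_cons, List.not_mem_nil, or_false, forall_eq_or_imp, forall_eq]
      refine ⟨⟨not_isConj (by omega), not_isConj (by omega), not_isConj (by omega), not_isConj (by omega)⟩,
        ⟨not_isConj (by omega), not_isConj (by omega), not_isConj (by omega)⟩,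
        ⟨not_isConj (by omega), not_isConj (by omega)⟩, not_conj_f6, ?_⟩
      simp) (by
      simp only [List.mem_cons, List.not_mem_nil, or_false, forall_eq_or_imp, forall_eq]
      exact ⟨ne_zero_one, ne_zero_of_not_dvd Nat.prime_two (by rw [hd]; norm_num) (ppow ot),
        ne_zero_of_not_dvd Nat.prime_two (by rw [hd]; norm_num) ⟨2, o4⟩,
        ne_zero_of_not_dvd Nat.prime_five (by rw [hd]; norm_num) (ppow o5),
        ne_zero_of_not_dvd Nat.prime_five (by rw [hd]; norm_num) (ppow o5')⟩)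
    rw [k_a6] at h
    simpa using h
  · exfalso
    apply hne
    exact Subtype.ext (eq_of_cnt_le_one (G := alternatingGroup (Fin 6)) (d := 10) (by rw [D.ten]) χ.2 φ.2
      ((deg_eq χ).2 hd) ((deg_eq φ).2 hφ))

theorem card_cent_f4 : Nat.card (Subgroup.centralizer ({f4} : Set (alternatingGroup (Fin 6)))) = 4 := by
  have h : Nat.card (Subgroup.centralizer ({f4} : Set (alternatingGroup (Fin 6)))) =
      Nat.card {g : alternatingGroup (Fin 6) // g * f4 = f4 * g} := by
    refine Nat.card_congr (Equiv.subtypeEquivRight fun g => ?_)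
    rw [Subgroup.mem_centralizer_singleton_iff]
  rw [h, Nat.card_eq_fintype_card]
  decide +kernel

/-- the irreducible characters of degrees 10, 5, 8 of `A₆` and their zeros -/
theorem a6_chars : ∃ χ₁₀ χ₅ χ₈ : IrrCharacter (alternatingGroup (Fin 6)), χ₁₀ ≠ χ₅ ∧ χ₁₀ ≠ χ₈ ∧ χ₅ ≠ χ₈ ∧
    3 ≤ zc χ₁₀ ∧ (∀ g, orderOf g = 5 → (χ₅ : alternatingGroup (Fin 6) → ℂ) g = 0) ∧
    (∀ g, orderOf g = 2 → (χ₈ : alternatingGroup (Fin 6) → ℂ) g = 0) ∧ (∀ g, orderOf g = 4 → (χ₈ : alternatingGroup (Fin 6) → ℂ) g = 0) := by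
  classical
  have D := deg_a6
  have := finite_irr (G := alternatingGroup (Fin 6))
  obtain ⟨χ₁₀, h10⟩ := exists_deg (G := alternatingGroup (Fin 6)) (d := 10) (by rw [D.ten]; norm_num)
  obtain ⟨χ₅, h5⟩ := exists_deg (G := alternatingGroup (Fin 6)) (d := 5) (by rw [D.five]; norm_num)
  obtain ⟨χ₈, h8⟩ := exists_deg (G := alternatingGroup (Fin 6)) (d := 8) (by rw [D.eight]; norm_num)
  have dz5 : ∀ {χ : IrrCharacter (alternatingGroup (Fin 6))}, 5 ∣ charDegree (χ : alternatingGroup (Fin 6) → ℂ) →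
      ∀ g, orderOf g = 5 → (χ : alternatingGroup (Fin 6) → ℂ) g = 0 := fun h g hg =>
    eq_zero_of_dz (p := 5) (a := 1) Nat.prime_five (by simpa using h) (by rw [card_a6]; norm_num) (by rw [hg])
  have dz2 : ∀ {χ : IrrCharacter (alternatingGroup (Fin 6))}, 8 ∣ charDegree (χ : alternatingGroup (Fin 6) → ℂ) →
      ∀ g, 2 ∣ orderOf g → (χ : alternatingGroup (Fin 6) → ℂ) g = 0 := fun h g hg =>
    eq_zero_of_dz (p := 2) (a := 3) Nat.prime_two (by simpa using h) (by rw [card_a6]; norm_num) hg
  refine ⟨χ₁₀, χ₅, χ₈, ne_of_deg (by omega), ne_of_deg (by omega), ne_of_deg (by omega), ?_, dz5 (by rw [h5]),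
    fun g hg => dz2 (by rw [h8]) g (by rw [hg]), fun g hg => dz2 (by rw [h8]) g (by rw [hg]; norm_num)⟩
  have z4 : (χ₁₀ : alternatingGroup (Fin 6) → ℂ) f4 = 0 := by
    by_contra hz
    have h1 := nv_le_card_centralizer f4
    rw [card_cent_f4] at h1
    -- characters of odd degree
    have h2 : Nat.card {χ : IrrCharacter (alternatingGroup (Fin 6)) // ¬ 2 ∣ charDegree (χ : alternatingGroup (Fin 6) → ℂ)} = 4 := by
      rw [card_filter (G := alternatingGroup (Fin 6)) (fun d => ¬ 2 ∣ d) _ D.mem,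
        show ({1, 5, 8, 9, 10} : Finset ℕ).filter (fun d => ¬ 2 ∣ d) = {1, 5, 9} by decide,
        Finset.sum_insert (by decide), Finset.sum_insert (by decide), Finset.sum_singleton, D.one, D.five, D.nine]
      norm_num
    have h3 : Nat.card ({χ : IrrCharacter (alternatingGroup (Fin 6)) // ¬ 2 ∣ charDegree (χ : alternatingGroup (Fin 6) → ℂ)} ⊕ Unit) ≤
        nv f4 := by
      refine Nat.card_le_card_of_injective (fun x => match x with
        | .inl χ => ⟨χ.1, ne_zero_of_not_dvd Nat.prime_two χ.2 ⟨2, ord_f4⟩⟩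
        | .inr _ => ⟨χ₁₀, hz⟩) ?_
      rintro (a | a) (b | b) hab
      · have h4 : a.1 = b.1 :=
          congrArg (fun x : {χ : IrrCharacter (alternatingGroup (Fin 6)) // (χ : alternatingGroup (Fin 6) → ℂ) f4 ≠ 0} => x.1) hab
        exact congrArg Sum.inl (Subtype.ext h4)
      · exfalso
        have h4 : a.1 = χ₁₀ := congrArg Subtype.val hab
        exact a.2 (by rw [h4, h10]; norm_num)
      · exfalso
        have h4 : χ₁₀ = b.1 := congrArg Subtype.val hab
        exact b.2 (by rw [← h4, h10]; norm_num)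
      · rfl
    rw [Nat.card_sum, h2, Nat.card_unique] at h3
    omega
  have o4 := ord_f4
  have o5 := ord_f6
  have o5' := ord_f6'
  exact le_zc_list [f4, f6, f6 ^ 2] (by
      simp only [List.pairwise_cons, List.mem_cons, List.not_mem_nil, or_false, forall_eq_or_imp, forall_eq]
      refine ⟨⟨not_isConj (by omega), not_isConj (by omega)⟩, not_conj_f6, ?_⟩
      simp) (by
      simp only [List.mem_cons, List.not_mem_nil, or_false, forall_eq_or_imp, forall_eq]
      exact ⟨z4, dz5 (by rw [h10]; norm_num) _ o5, dz5 (by rw [h10]; norm_num) _ o5'⟩)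

end Cfsg.Agent.H377.TwoConv
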